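import Cfsg.Agent.H276.HM.SymB
import Cfsg.Agent.H41.HM.Lin

/-!
# S5175, symmetric blocks: `off_eq'` and `linOne'` in the notation of `H276/HM/SymB` (helper41)
-/

set_option autoImplicit false

namespace Cfsg.Agent.H41.HM

open Cfsg Cfsg.Agent.H756.HM Cfsg.Agent.H276.HM
open scoped commutatorElement

theorem off_eq' {P : Type*} [Group P] [Finite P] {I : Type} {n : ℕ} (T : Sylow 2 P) {S : Sy (T : Subgroup P) I n}
    {X X' : Subgroup P} (hX : Offd (T : Subgroup P) X) (h : Full S X) (hX' : Offd (T : Subgroup P) X') (h' : Full S X') :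
    X' ⊔ pCore 2 P = X ⊔ pCore 2 P :=
  (Full.unique T.isPGroup' hX hX' h h').symm

theorem linOne' {P : Type*} [Group P] [Finite P] {I : Type} {n : ℕ} (T : Sylow 2 P) {S : Sy (T : Subgroup P) I n}
    {X : Subgroup P} (hX : Offd (T : Subgroup P) X) (h : Full S X) {x : I × Fin n} (hx : Mv S X x)
    (hB : ∀ t ∈ X ⊔ pCore 2 P, S.σ t x = x → t ∈ pCore 2 P) :
    LinOne P ⁅pCore 2 P, pResidual 2 P⁆ (X ⊔ pCore 2 P) 2 := by
  obtain ⟨a, ha, hax⟩ := hx
  exact linOne_of S hX h ha hax fun t ht h1 => hB t (Subgroup.mem_sup_left ht) h1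

end Cfsg.Agent.H41.HM
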