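import Cfsg.Agent.H41.HM.Off
import Cfsg.Agent.H756.HM.Stmts

/-!
# S5175, symmetric blocks: the conclusions of `StOff` and `StBD` (helper41)
-/

set_option autoImplicit false

namespace Cfsg.Agent.H41.HM

open Cfsg Cfsg.Agent.H756.HM
open scoped commutatorElement

universe u

/-- the second alternative of `Blk.typ` -/
def SymTyp {P : Type u} [Group P] {T : Subgroup P} (b : Blk T) : Prop :=
  ∃ m : ℕ, 1 ≤ m ∧ (∃ k : ℕ, 2 * m = 2 ^ k) ∧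
      ∀ i, ∃ (ρ : ↥(b.E i) →* Equiv.Perm (Fin (2 * m + 1)))
        (ψ : ↥(⁅pCore 2 P, b.E i⁆ : Subgroup P) →* Multiplicative (Fin (2 * m + 1) → ZMod 2)),
        ρ.range = alternatingGroup (Fin (2 * m + 1)) ∧
        (∀ e, ρ e = 1 ↔ (e : P) ∈ ⁅pCore 2 P, b.E i⁆) ∧
        (∀ w, ∑ k, Multiplicative.toAdd (ψ w) k = 0) ∧
        (∀ v : Fin (2 * m + 1) → ZMod 2, ∑ k, v k = 0 → ∃ w, Multiplicative.toAdd (ψ w) = v) ∧
        (∀ w, ψ w = 1 ↔ (w : P) ∈ Subgroup.centralizer (b.E i : Set P)) ∧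
        ∀ (e : b.E i) (w w' : ↥(⁅pCore 2 P, b.E i⁆ : Subgroup P)), (w' : P) = (e : P) * w * (e : P)⁻¹ →
          ∀ k, Multiplicative.toAdd (ψ w') k = Multiplicative.toAdd (ψ w) ((ρ e)⁻¹ k)

/-- `StOff`, symmetric type -/
theorem stOff {P : Type u} [Group P] [Finite P] (T : Sylow 2 P) (b : Blk (T : Subgroup P)) (hs : SymTyp b)
    (X : Subgroup P) (h1 : X ≤ T) (h2 : (T : Subgroup P) ≤ Subgroup.normalizer (X : Set P))
    (h3 : ∀ a ∈ X, ∀ b ∈ X, a * b = b * a) (h4 : ∀ a ∈ X, a ^ 2 = 1) :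
    (pCore 2 P ⊓ X).relIndex X ≤
      (⁅pCore 2 P, pResidual 2 P⁆ ⊓ Subgroup.centralizer (X : Set P)).relIndex ⁅pCore 2 P, pResidual 2 P⁆ := by
  obtain ⟨n, ⟨S⟩⟩ := exists_Sy T b hs
  exact stOff_sym T S X ⟨h1, h2, h3, h4⟩

/-- `StBD`, symmetric type, from the construction of the block data -/
theorem stBD_of (bds : StBDS.{u}) {P : Type u} [Group P] [Finite P] (T : Sylow 2 P) (b : Blk (T : Subgroup P)) (hs : SymTyp b)
    (X : Subgroup P) (h1 : X ≤ T) (h2 : (T : Subgroup P) ≤ Subgroup.normalizer (X : Set P))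
    (h3 : ∀ a ∈ X, ∀ b ∈ X, a * b = b * a) (h4 : ∀ a ∈ X, a ^ 2 = 1) (h5 : ¬ X ≤ pCore 2 P)
    (h6 : (⁅pCore 2 P, pResidual 2 P⁆ ⊓ Subgroup.centralizer (X : Set P)).relIndex ⁅pCore 2 P, pResidual 2 P⁆ ≤
      (pCore 2 P ⊓ X).relIndex X) :
    Nonempty (BD (T : Subgroup P)) := by
  obtain ⟨n, ⟨S⟩⟩ := exists_Sy T b hs
  have hX : Offd (T : Subgroup P) X := ⟨h1, h2, h3, h4⟩
  exact bds T S X hX (offEq T S X hX h5 h6) (stOff_sym T S) (offEq T S)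

end Cfsg.Agent.H41.HM
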