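import Cfsg.Agent.H41.HM.Off

/-!
# S5175, symmetric blocks: consequences of `Full` for `T₀ = X O_2(P)` (helper41)
-/

set_option autoImplicit false
set_option linter.unusedSectionVars false

namespace Cfsg.Agent.H41.HM

open Cfsg Cfsg.Agent.H756.HM
open scoped commutatorElement

variable {P : Type*} [Group P] {T : Subgroup P} {I : Type} {n : ℕ} (S : Sy T I n) {X : Subgroup P}

theorem Sy.mem_sup_iff (t : P) : t ∈ X ⊔ pCore 2 P ↔ ∃ a ∈ X, S.σ t = S.σ a := by
  have hQn := Lib.Cores.pCore_normal (G := P) 2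
  constructor
  · intro h
    rw [← SetLike.mem_coe, Subgroup.mul_normal] at h
    obtain ⟨a, ha, q, hq, rfl⟩ := h
    exact ⟨a, ha, by rw [map_mul, (S.σker q).2 hq, mul_one]⟩
  · rintro ⟨a, ha, h⟩
    have h1 : a⁻¹ * t ∈ pCore 2 P := by
      rw [← S.σker, map_mul, map_inv, h, inv_mul_cancel]
    have h2 : t = a * (a⁻¹ * t) := by group
    rw [h2]
    exact mul_mem (Subgroup.mem_sup_left ha) (Subgroup.mem_sup_right h1)

/-- the transposition of a moved point and its partner -/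
theorem Full.swap_mem [DecidableEq I] {S : Sy T I n} (h : Full S X) (hX : Offd T X) {a : P} (ha : a ∈ X) (x : I × Fin n) :
    ∃ b ∈ X, S.σ b = Equiv.swap x (S.σ a x) := by
  apply h.full
  intro y
  by_cases h1 : y = x
  · exact ⟨a, ha, by rw [h1, Equiv.swap_apply_left]⟩
  · by_cases h2 : y = S.σ a x
    · refine ⟨a, ha, ?_⟩
      rw [h2, Equiv.swap_apply_right, ← Equiv.Perm.mul_apply, ← map_mul, ← pow_two, hX.sq a ha, map_one]; rfl
    · exact ⟨1, one_mem _, by rw [Equiv.swap_apply_of_ne_of_ne h1 h2, map_one]; rfl⟩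

/-- `C_{T/Q}(T₀/Q) ≤ T₀/Q` -/
theorem Full.cent {S : Sy T I n} (h : Full S X) (hX : Offd T X) (t : P)
    (htc : ∀ a ∈ X, ⁅t, a⁆ ∈ pCore 2 P) : t ∈ X ⊔ pCore 2 P := by
  classical
  rw [S.mem_sup_iff]
  have hcomm : ∀ a ∈ X, ∀ x, S.σ a (S.σ t x) = S.σ t (S.σ a x) := by
    intro a ha x
    have h1 := (S.σker _).2 (htc a ha)
    rw [map_commutatorElement, commutatorElement_eq_one_iff_mul_comm] at h1
    rw [← Equiv.Perm.mul_apply, ← h1]; rfl
  obtain ⟨f, hf⟩ := h.fp
  have hmoved : ∀ x, ∀ a ∈ X, S.σ a x ≠ x → S.σ t x = x ∨ S.σ t x = S.σ a x := by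
    intro x a ha hax
    obtain ⟨b, hb, hbs⟩ := h.swap_mem hX ha x
    have h1 := hcomm b hb x
    rw [hbs, Equiv.swap_apply_left] at h1
    by_contra hcon
    rw [not_or] at hcon
    rw [Equiv.swap_apply_of_ne_of_ne hcon.1 hcon.2] at h1
    exact hax ((S.σ t).injective h1).symm
  have hpt : ∀ x, ∃ a ∈ X, S.σ t x = S.σ a x := by
    intro x
    by_cases hx : ∀ a ∈ X, S.σ a x = x
    · refine ⟨1, one_mem _, ?_⟩
      rw [map_one, Equiv.Perm.one_apply]
      obtain ⟨i, k⟩ := x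
      have hk := (hf i k).1 hx
      subst hk
      obtain ⟨l, hl, -⟩ := Sy.exists_third S i (f i) (i, f i)
      have hl' : ¬ ∀ a ∈ X, S.σ a (i, l) = (i, l) := fun h => hl ((hf i l).1 h)
      push Not at hl'
      obtain ⟨a, ha, hal⟩ := hl'
      have h1 : (S.σ t (i, l)).1 = i := by
        rcases hmoved _ a ha hal with h1 | h1
        · rw [h1]
        · rw [h1, h.fixb a ha]
      have h2 : (S.σ t (i, f i)).1 = i := by rw [S.blk t i (f i) l]; exact h1
      have h3 : S.σ t (i, f i) = (i, (S.σ t (i, f i)).2) := Prod.ext h2 rfl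
      have h4 := (hf i (S.σ t (i, f i)).2).1 fun a ha => by rw [← h3, hcomm a ha, hx a ha]
      rw [h3, h4]
    · push Not at hx
      obtain ⟨a, ha, hax⟩ := hx
      rcases hmoved x a ha hax with h1 | h1
      · exact ⟨1, one_mem _, by rw [h1, map_one]; rfl⟩
      · exact ⟨a, ha, h1⟩
  obtain ⟨a, ha, hag⟩ := h.full _ hpt
  exact ⟨a, ha, hag.symm⟩

/-- two overlapping transpositions do not lie in a 2-group -/
theorem no_overlap {Y : Type*} [Finite Y] [DecidableEq Y] {H : Subgroup (Equiv.Perm Y)} (hH : IsPGroup 2 H) {x y z : Y}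
    (h1 : Equiv.swap x y ∈ H) (h2 : Equiv.swap x z ∈ H) (hxy : x ≠ y) (hxz : x ≠ z) (hyz : y ≠ z) : False := by
  have := Fintype.ofFinite Y
  have h3 := Equiv.Perm.isThreeCycle_swap_mul_swap_same hxy hxz hyz
  have h4 := h3.orderOf
  obtain ⟨k, hk⟩ := hH ⟨_, mul_mem h1 h2⟩
  have h5 : (Equiv.swap x y * Equiv.swap x z) ^ 2 ^ k = 1 := congrArg Subtype.val hk
  have h6 := orderOf_dvd_of_pow_eq_one h5
  rw [h4] at h6
  have h7 : 3 ∣ 2 := Nat.Prime.dvd_of_dvd_pow (by norm_num) h6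
  omega

theorem Full.le_of [Finite P] {S : Sy T I n} (hT : IsPGroup 2 T) {X' : Subgroup P} (hX : Offd T X) (hX' : Offd T X')
    (h : Full S X) (h' : Full S X') : X ⊔ pCore 2 P ≤ X' ⊔ pCore 2 P := by
  classical
  have hfin := S.fin
  have hH : IsPGroup 2 (T.map S.σ) := hT.map _
  intro t ht
  rw [S.mem_sup_iff] at ht ⊢
  obtain ⟨a, ha, hta⟩ := ht
  rw [hta]
  obtain ⟨f', hf'⟩ := h'.fp
  have hpt : ∀ x, ∃ a' ∈ X', S.σ a x = S.σ a' x := by
    intro x
    by_cases hax : S.σ a x = x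
    · exact ⟨1, one_mem _, by rw [hax, map_one]; rfl⟩
    obtain ⟨b, hb, hbs⟩ := h.swap_mem hX ha x
    have hsw : Equiv.swap x (S.σ a x) ∈ T.map S.σ := ⟨b, hX.le hb, hbs⟩
    have haa : S.σ a (S.σ a x) = x := S.invol hX ha x
    have key : ∀ z, (z = x ∨ z = S.σ a x) → ∀ a' ∈ X', S.σ a' z ≠ z → S.σ a' x = S.σ a x := by
      intro z hz a' ha' hz'
      obtain ⟨b', hb', hbs'⟩ := h'.swap_mem hX' ha' z
      have hsw' : Equiv.swap z (S.σ a' z) ∈ T.map S.σ := ⟨b', hX'.le hb', hbs'⟩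
      have haa' : S.σ a' (S.σ a' z) = z := S.invol hX' ha' z
      rcases hz with rfl | rfl
      · by_contra hne
        exact no_overlap hH hsw hsw' (Ne.symm hax) (Ne.symm hz') (Ne.symm hne)
      · by_contra hne
        rw [Equiv.swap_comm] at hsw
        have hne' : x ≠ S.σ a' (S.σ a x) := by
          intro e
          rw [← e] at haa'
          exact hne haa'
        exact no_overlap hH hsw hsw' hax (Ne.symm hz') hne'
    by_cases hx' : ∀ a' ∈ X', S.σ a' x = x
    · by_cases hy' : ∀ a' ∈ X', S.σ a' (S.σ a x) = S.σ a x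
      · exfalso
        obtain ⟨i, k⟩ := x
        have h1 : S.σ a (i, k) = (i, (S.σ a (i, k)).2) := Prod.ext (h.fixb a ha _) rfl
        have h2 := (hf' i k).1 hx'
        rw [h1] at hy'
        have h3 := (hf' i _).1 hy'
        rw [h3, ← h2] at h1
        exact hax h1
      · push Not at hy'
        obtain ⟨a', ha', hay⟩ := hy'
        exact ⟨a', ha', (key _ (Or.inr rfl) a' ha' hay).symm⟩
    · push Not at hx'
      obtain ⟨a', ha', hax'⟩ := hx'
      exact ⟨a', ha', (key _ (Or.inl rfl) a' ha' hax').symm⟩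
  obtain ⟨a', ha', hag⟩ := h'.full _ hpt
  exact ⟨a', ha', hag.symm⟩

/-- `X O_2(P)` does not depend on the extremal offender `X` -/
theorem Full.unique [Finite P] {S : Sy T I n} (hT : IsPGroup 2 T) {X' : Subgroup P} (hX : Offd T X) (hX' : Offd T X')
    (h : Full S X) (h' : Full S X') : X ⊔ pCore 2 P = X' ⊔ pCore 2 P :=
  le_antisymm (h.le_of hT hX hX' h') (h'.le_of hT hX' hX h)

end Cfsg.Agent.H41.HM
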