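import Cfsg.Agent.H756.HM.Defs
import Cfsg.Agent.H41.HM.PermRec
import Cfsg.Agent.Transfer.Residual
import Cfsg.Agent.Lib.Cores

/-!
# S5175, symmetric blocks: the permutation action of `P` on the points of all blocks (helper41)
-/

set_option autoImplicit false
set_option linter.unusedSimpArgs false
set_option linter.unusedSectionVars false

namespace Cfsg.Agent.H41.HM

open Cfsg Cfsg.Agent.H756.HM
open scoped commutatorElement

variable {P : Type*} [Group P]

theorem mem_sup_comm {H L : Subgroup P} (hc : ∀ a ∈ H, ∀ b ∈ L, a * b = b * a) {g : P} (hg : g ∈ H ⊔ L) :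
    ∃ a ∈ H, ∃ b ∈ L, g = a * b := by
  let M : Subgroup P :=
    { carrier := {g | ∃ a ∈ H, ∃ b ∈ L, g = a * b}
      one_mem' := ⟨1, H.one_mem, 1, L.one_mem, (mul_one 1).symm⟩
      mul_mem' := by
        rintro _ _ ⟨a, ha, b, hb, rfl⟩ ⟨a', ha', b', hb', rfl⟩
        refine ⟨a * a', H.mul_mem ha ha', b * b', L.mul_mem hb hb', ?_⟩
        rw [mul_assoc, ← mul_assoc b, ← hc a' ha' b hb]
        simp only [mul_assoc]
      inv_mem' := by
        rintro _ ⟨a, ha, b, hb, rfl⟩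
        refine ⟨a⁻¹, H.inv_mem ha, b⁻¹, L.inv_mem hb, ?_⟩
        rw [mul_inv_rev, hc _ (H.inv_mem ha) _ (L.inv_mem hb)] }
  have h1 : H ⊔ L ≤ M := sup_le (fun a ha => ⟨a, ha, 1, L.one_mem, (mul_one a).symm⟩)
    fun b hb => ⟨1, H.one_mem, b, hb, (one_mul b).symm⟩
  exact h1 hg

/-- symmetric block data -/
structure SBl {P : Type*} [Group P] (T : Subgroup P) (I : Type) (n : ℕ) where
  E : I → Subgroup P
  inj : Function.Injective E
  comm : ∀ i j, i ≠ j → ∀ a ∈ E i, ∀ b ∈ E j, a * b = b * a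
  sup : (⨆ i, E i) = pResidual 2 P
  perm : ∀ t ∈ T, ∀ i, ∃ j, (E i).map (MulAut.conj t).toMonoidHom = E j
  trans : ∀ i j, ∃ t ∈ T, (E i).map (MulAut.conj t).toMonoidHom = E j
  core : ∀ i, ⁅pCore 2 P, E i⁆ ≤ E i
  bw : BW T
  n3 : 3 ≤ n
  f : I → P → (Fin n → ZMod 2)
  r : I → P → Equiv.Perm (Fin n)
  f_mul : ∀ i, ∀ u ∈ (⁅pCore 2 P, E i⁆ : Subgroup P), ∀ u' ∈ (⁅pCore 2 P, E i⁆ : Subgroup P), f i (u * u') = f i u + f i u'
  f_even : ∀ i, ∀ u ∈ (⁅pCore 2 P, E i⁆ : Subgroup P), ∑ k, f i u k = 0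
  f_surj : ∀ i, ∀ v : Fin n → ZMod 2, ∑ k, v k = 0 → ∃ u ∈ (⁅pCore 2 P, E i⁆ : Subgroup P), f i u = v
  f_ker : ∀ i, ∀ u ∈ (⁅pCore 2 P, E i⁆ : Subgroup P), f i u = 0 ↔ u ∈ Subgroup.centralizer (E i : Set P)
  f_conj : ∀ i, ∀ e ∈ E i, ∀ u ∈ (⁅pCore 2 P, E i⁆ : Subgroup P), ∀ k, f i (e * u * e⁻¹) k = f i u ((r i e)⁻¹ k)
  r_surj : ∀ i, ∀ h ∈ alternatingGroup (Fin n), ∃ e ∈ E i, r i e = h
  r_ker : ∀ i, ∀ e ∈ E i, r i e = 1 ↔ e ∈ (⁅pCore 2 P, E i⁆ : Subgroup P)

namespace SBl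

variable {T : Subgroup P} {I : Type} {n : ℕ} (B : SBl T I n)

theorem E_le (i : I) : B.E i ≤ pResidual 2 P := by
  rw [← B.sup]; exact le_iSup B.E i

theorem W_le (i : I) : ⁅pCore 2 P, B.E i⁆ ≤ ⁅pCore 2 P, pResidual 2 P⁆ := Subgroup.commutator_mono le_rfl (B.E_le i)

theorem WQ (i : I) : ⁅pCore 2 P, B.E i⁆ ≤ pCore 2 P := by
  have := Lib.Cores.pCore_normal (G := P) 2
  exact Subgroup.commutator_le_left _ _

theorem WWQ : ⁅pCore 2 P, pResidual 2 P⁆ ≤ pCore 2 P := by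
  have := Lib.Cores.pCore_normal (G := P) 2
  exact Subgroup.commutator_le_left _ _

theorem norW (i : I) {e u : P} (he : e ∈ B.E i) (hu : u ∈ ⁅pCore 2 P, B.E i⁆) : e * u * e⁻¹ ∈ ⁅pCore 2 P, B.E i⁆ := by
  have h1 : ⁅u⁻¹, e⁆ ∈ ⁅pCore 2 P, B.E i⁆ := Subgroup.commutator_mem_commutator (inv_mem (B.WQ i hu)) he
  have h2 : e * u * e⁻¹ = u * ⁅u⁻¹, e⁆ := by
    rw [commutatorElement_def]; group
  rw [h2]
  exact mul_mem hu h1

/-- conjugation between blocks -/
theorem conjW {t : P} {i j : I} (h : (B.E i).map (MulAut.conj t).toMonoidHom = B.E j) {u : P}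
    (hu : u ∈ ⁅pCore 2 P, B.E i⁆) : t * u * t⁻¹ ∈ ⁅pCore 2 P, B.E j⁆ := by
  have := Lib.Cores.pCore_normal (G := P) 2
  have h1 : (⁅pCore 2 P, B.E i⁆ : Subgroup P).map (MulAut.conj t).toMonoidHom = ⁅pCore 2 P, B.E j⁆ := by
    rw [Subgroup.map_commutator, h]
    congr 1
    exact Subgroup.Normal.map_conj_eq _ t
  rw [← h1]
  exact ⟨u, hu, rfl⟩

theorem conjE {t : P} {i j : I} (h : (B.E i).map (MulAut.conj t).toMonoidHom = B.E j) {u : P}
    (hu : u ∈ B.E i) : t * u * t⁻¹ ∈ B.E j := by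
  rw [← h]
  exact ⟨u, hu, rfl⟩

theorem conjC {t : P} {i j : I} (h : (B.E i).map (MulAut.conj t).toMonoidHom = B.E j) {u : P}
    (hu : u ∈ Subgroup.centralizer (B.E i : Set P)) : t * u * t⁻¹ ∈ Subgroup.centralizer (B.E j : Set P) := by
  rw [Subgroup.mem_centralizer_iff] at hu ⊢
  intro b hb
  rw [← h] at hb
  obtain ⟨a, ha, rfl⟩ := hb
  show t * a * t⁻¹ * (t * u * t⁻¹) = t * u * t⁻¹ * (t * a * t⁻¹)
  have h1 := hu a ha
  calc t * a * t⁻¹ * (t * u * t⁻¹) = t * (a * u) * t⁻¹ := by group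
    _ = t * (u * a) * t⁻¹ := by rw [h1]
    _ = _ := by group

theorem conj_eq_inv {t : P} {i j : I} (h : (B.E i).map (MulAut.conj t).toMonoidHom = B.E j) :
    (B.E j).map (MulAut.conj t⁻¹).toMonoidHom = B.E i := by
  rw [← h, Subgroup.map_map]
  convert Subgroup.map_id _
  ext x
  show t⁻¹ * (t * x * t⁻¹) * t⁻¹⁻¹ = x
  group

theorem E_cent {i j : I} (hij : i ≠ j) : B.E i ≤ Subgroup.centralizer (B.E j : Set P) := fun a ha => by
  rw [Subgroup.mem_centralizer_iff]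
  intro b hb
  exact (B.comm i j hij a ha b hb).symm

theorem mem_cent {i : I} {c e : P} (hc : c ∈ Subgroup.centralizer (B.E i : Set P)) (he : e ∈ B.E i) : e * c = c * e :=
  (Subgroup.mem_centralizer_iff.1 hc) e he

theorem exists_dec (i : I) {g : P} (hg : g ∈ pResidual 2 P) :
    ∃ e ∈ B.E i, ∃ c ∈ Subgroup.centralizer (B.E i : Set P), g = e * c := by
  apply mem_sup_comm (fun a ha b hb => B.mem_cent hb ha)
  rw [← B.sup] at hg
  refine (iSup_le fun j => ?_ : (⨆ j, B.E j) ≤ _) hg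
  by_cases hij : j = i
  · rw [hij]; exact le_sup_left
  · exact (B.E_cent hij).trans le_sup_right

theorem comm_cent (i : I) {q c : P} (hq : q ∈ pCore 2 P) (hc : c ∈ Subgroup.centralizer (B.E i : Set P)) :
    ⁅q, c⁆ ∈ Subgroup.centralizer (B.E i : Set P) := by
  rw [Subgroup.mem_centralizer_iff]
  intro e he
  have hec := B.mem_cent hc he
  have hu : ⁅q⁻¹, e⁆ ∈ ⁅pCore 2 P, B.E i⁆ := Subgroup.commutator_mem_commutator (inv_mem hq) he
  have huc := B.mem_cent hc (B.core i hu)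
  have h1 : e * q * e⁻¹ = q * ⁅q⁻¹, e⁆ := by
    rw [commutatorElement_def]; group
  rw [commutatorElement_def]
  set u := ⁅q⁻¹, e⁆
  have h2 : e * c * e⁻¹ = c := by rw [hec]; group
  have h3 : e * c⁻¹ * e⁻¹ = c⁻¹ := by
    have := congrArg (·⁻¹) h2
    simpa [mul_assoc] using this
  have h4 : u * c * u⁻¹ = c := by rw [huc]; group
  have h5 : e * (q * c * q⁻¹ * c⁻¹) * e⁻¹ = q * c * q⁻¹ * c⁻¹ := by
    calc e * (q * c * q⁻¹ * c⁻¹) * e⁻¹ = (e * q * e⁻¹) * (e * c * e⁻¹) * (e * q * e⁻¹)⁻¹ * (e * c⁻¹ * e⁻¹) := by group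
      _ = q * (u * c * u⁻¹) * q⁻¹ * c⁻¹ := by rw [h1, h2, h3]; group
      _ = _ := by rw [h4]
  calc e * (q * c * q⁻¹ * c⁻¹) = e * (q * c * q⁻¹ * c⁻¹) * e⁻¹ * e := by group
    _ = _ := by rw [h5]

/-- the component of an element of `W` -/
theorem exists_comp (i : I) {w : P} (hw : w ∈ ⁅pCore 2 P, pResidual 2 P⁆) :
    ∃ u ∈ (⁅pCore 2 P, B.E i⁆ : Subgroup P), u⁻¹ * w ∈ Subgroup.centralizer (B.E i : Set P) := by
  have h1 : ⁅pCore 2 P, pResidual 2 P⁆ ≤ ⁅pCore 2 P, B.E i⁆ ⊔ Subgroup.centralizer (B.E i : Set P) := by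
    rw [Subgroup.commutator_le]
    intro q hq g hg
    obtain ⟨e, he, c, hc, rfl⟩ := B.exists_dec i hg
    have h2 := B.comm_cent i hq hc
    have h3 := B.mem_cent h2 he
    have h4 : ⁅q, e * c⁆ = ⁅q, e⁆ * ⁅q, c⁆ := by
      have h5 : ⁅q, e * c⁆ = ⁅q, e⁆ * (e * ⁅q, c⁆ * e⁻¹) := by
        rw [commutatorElement_def, commutatorElement_def, commutatorElement_def]; group
      rw [h5, h3]; group
    rw [h4]
    exact mul_mem (Subgroup.mem_sup_left (Subgroup.commutator_mem_commutator hq he)) (Subgroup.mem_sup_right h2)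
  obtain ⟨u, hu, c, hc, rfl⟩ := mem_sup_comm (fun a ha b hb => B.mem_cent hb (B.core i ha)) (h1 hw)
  exact ⟨u, hu, by rwa [inv_mul_cancel_left]⟩

open Classical in
/-- the coordinate map -/
noncomputable def Ψ (w : P) (x : I × Fin n) : ZMod 2 :=
  if h : ∃ u, u ∈ (⁅pCore 2 P, B.E x.1⁆ : Subgroup P) ∧ u⁻¹ * w ∈ Subgroup.centralizer (B.E x.1 : Set P) then
    B.f x.1 h.choose x.2 else 0

theorem f_one (i : I) : B.f i 1 = 0 := by
  have h := B.f_mul i 1 (one_mem _) 1 (one_mem _)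
  rw [mul_one] at h
  exact left_eq_add.1 h

theorem Ψ_eq {w u : P} {i : I} (hu : u ∈ (⁅pCore 2 P, B.E i⁆ : Subgroup P))
    (hc : u⁻¹ * w ∈ Subgroup.centralizer (B.E i : Set P)) (k : Fin n) : B.Ψ w (i, k) = B.f i u k := by
  have h : ∃ u, u ∈ (⁅pCore 2 P, B.E i⁆ : Subgroup P) ∧ u⁻¹ * w ∈ Subgroup.centralizer (B.E i : Set P) := ⟨u, hu, hc⟩
  have h1 : B.Ψ w (i, k) = B.f i h.choose k := by
    unfold Ψ
    rw [dif_pos h]
  obtain ⟨h2, h3⟩ := h.choose_spec
  set u' := h.choose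
  rw [h1]
  have h4 : u'⁻¹ * u ∈ Subgroup.centralizer (B.E i : Set P) := by
    have : u'⁻¹ * u = (u'⁻¹ * w) * (u⁻¹ * w)⁻¹ := by group
    rw [this]
    exact mul_mem h3 (inv_mem hc)
  have h5 := (B.f_ker i _ (mul_mem (inv_mem h2) hu)).2 h4
  have h6 : B.f i u = B.f i u' + B.f i (u'⁻¹ * u) := by
    rw [← B.f_mul i _ h2 _ (mul_mem (inv_mem h2) hu), mul_inv_cancel_left]
  rw [h6, h5, add_zero]

theorem Ψ_mul {w w' : P} (hw : w ∈ ⁅pCore 2 P, pResidual 2 P⁆) (hw' : w' ∈ ⁅pCore 2 P, pResidual 2 P⁆) :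
    B.Ψ (w * w') = B.Ψ w + B.Ψ w' := by
  funext ⟨i, k⟩
  obtain ⟨u, hu, hc⟩ := B.exists_comp i hw
  obtain ⟨u', hu', hc'⟩ := B.exists_comp i hw'
  have h1 : (u * u')⁻¹ * (w * w') ∈ Subgroup.centralizer (B.E i : Set P) := by
    have h2 := B.mem_cent hc (inv_mem (B.core i hu'))
    have : (u * u')⁻¹ * (w * w') = (u⁻¹ * w) * (u'⁻¹ * w') := by
      calc (u * u')⁻¹ * (w * w') = u'⁻¹ * (u⁻¹ * w) * w' := by group
        _ = _ := by rw [h2]; group
    rw [this]
    exact mul_mem hc hc'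
  rw [Pi.add_apply, B.Ψ_eq hu hc, B.Ψ_eq hu' hc', B.Ψ_eq (mul_mem hu hu') h1, B.f_mul i u hu u' hu', Pi.add_apply]

theorem Ψ_even {w : P} (hw : w ∈ ⁅pCore 2 P, pResidual 2 P⁆) (i : I) : ∑ k, B.Ψ w (i, k) = 0 := by
  obtain ⟨u, hu, hc⟩ := B.exists_comp i hw
  rw [← B.f_even i u hu]
  exact Finset.sum_congr rfl fun k _ => B.Ψ_eq hu hc k

theorem Ψ_ker {w : P} (hw : w ∈ ⁅pCore 2 P, pResidual 2 P⁆) :
    B.Ψ w = 0 ↔ w ∈ Subgroup.centralizer (pResidual 2 P : Set P) := by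
  constructor
  · intro h
    have h1 : ∀ i, B.E i ≤ Subgroup.centralizer ({w} : Set P) := by
      intro i
      obtain ⟨u, hu, hc⟩ := B.exists_comp i hw
      have h2 : u ∈ Subgroup.centralizer (B.E i : Set P) := by
        rw [← B.f_ker i u hu]
        funext k
        rw [← B.Ψ_eq hu hc k, h]; rfl
      have h3 : w ∈ Subgroup.centralizer (B.E i : Set P) := by
        rw [← mul_inv_cancel_left u w]
        exact mul_mem h2 hc
      intro e he
      rw [Subgroup.mem_centralizer_singleton_iff]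
      exact B.mem_cent h3 he
    rw [← B.sup, Subgroup.mem_centralizer_iff]
    intro e he
    exact Subgroup.mem_centralizer_singleton_iff.1 ((iSup_le h1 : (⨆ i, B.E i) ≤ _) he)
  · intro h
    funext ⟨i, k⟩
    have h1 : (1 : P)⁻¹ * w ∈ Subgroup.centralizer (B.E i : Set P) := by
      rw [inv_one, one_mul]
      exact Subgroup.centralizer_le (B.E_le i) h
    rw [B.Ψ_eq (one_mem _) h1, B.f_one]; rfl

theorem Ψ_one : B.Ψ 1 = 0 := (B.Ψ_ker (one_mem _)).2 (one_mem _)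

theorem Ψ_surj [Finite I] (v : I × Fin n → ZMod 2) (hv : ∀ i, ∑ k, v (i, k) = 0) :
    ∃ w ∈ ⁅pCore 2 P, pResidual 2 P⁆, B.Ψ w = v := by
  classical
  have := Fintype.ofFinite I
  choose u hu hfu using fun i => B.f_surj i (fun k => v (i, k)) (hv i)
  have key : ∀ s : Finset I, ∃ w ∈ ⁅pCore 2 P, pResidual 2 P⁆, ∀ i k, B.Ψ w (i, k) = if i ∈ s then v (i, k) else 0 := by
    intro s
    induction s using Finset.induction_on with
    | empty => exact ⟨1, one_mem _, fun i k => by rw [B.Ψ_one]; simp⟩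
    | insert j s hj ih =>
      obtain ⟨w, hw, hww⟩ := ih
      refine ⟨w * u j, mul_mem hw (B.W_le j (hu j)), fun i k => ?_⟩
      rw [B.Ψ_mul hw (B.W_le j (hu j)), Pi.add_apply, hww]
      by_cases hij : i = j
      · subst hij
        have h1 : (u i)⁻¹ * u i ∈ Subgroup.centralizer (B.E i : Set P) := by
          rw [inv_mul_cancel]; exact one_mem _
        rw [B.Ψ_eq (hu i) h1, hfu, if_neg hj, if_pos (Finset.mem_insert_self _ _), zero_add]
      · have h1 : (1 : P)⁻¹ * u j ∈ Subgroup.centralizer (B.E i : Set P) := by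
          rw [inv_one, one_mul]
          exact B.E_cent (Ne.symm hij) (B.core j (hu j))
        rw [B.Ψ_eq (one_mem _) h1, B.f_one]
        simp only [Finset.mem_insert, hij, false_or, Pi.zero_apply, add_zero]
  obtain ⟨w, hw, hww⟩ := key Finset.univ
  exact ⟨w, hw, funext fun ⟨i, k⟩ => by rw [hww, if_pos (Finset.mem_univ i)]⟩

/-! ### Equivariance -/

/-- the permutation `s` describes the action of `g` -/
def Good (g : P) (s : Equiv.Perm (I × Fin n)) : Prop :=
  ∀ w ∈ ⁅pCore 2 P, pResidual 2 P⁆, ∀ x, B.Ψ (g * w * g⁻¹) (s x) = B.Ψ w x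

theorem W_nor : (⁅pCore 2 P, pResidual 2 P⁆ : Subgroup P).Normal := by
  have := Lib.Cores.pCore_normal (G := P) 2
  have := Transfer.Residual.pResidual_normal (G := P) 2
  infer_instance

theorem W_conj (g : P) {w : P} (hw : w ∈ ⁅pCore 2 P, pResidual 2 P⁆) : g * w * g⁻¹ ∈ ⁅pCore 2 P, pResidual 2 P⁆ :=
  (W_nor).conj_mem w hw g

theorem good_mul {g g' : P} {s s' : Equiv.Perm (I × Fin n)} (h : B.Good g s) (h' : B.Good g' s') :
    B.Good (g * g') (s * s') := by
  intro w hw x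
  have h1 : g * g' * w * (g * g')⁻¹ = g * (g' * w * g'⁻¹) * g⁻¹ := by group
  rw [h1, Equiv.Perm.mul_apply, h _ (W_conj g' hw), h' w hw]

theorem good_one : B.Good 1 1 := by
  intro w hw x
  rw [one_mul, inv_one, mul_one]; rfl

theorem good_inv {g : P} {s : Equiv.Perm (I × Fin n)} (h : B.Good g s) : B.Good g⁻¹ s⁻¹ := by
  intro w hw x
  have h1 := h _ (W_conj g⁻¹ hw) (s⁻¹ x)
  rw [← h1]
  congr 1
  · group
  · exact s.apply_symm_apply x

/-- weight two vectors in a block -/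
def ee [DecidableEq I] (x y : I × Fin n) : I × Fin n → ZMod 2 := fun z =>
  (if z = x then 1 else 0) + (if z = y then 1 else 0)

theorem sum_delta [DecidableEq I] (x : I × Fin n) (i : I) :
    ∑ k, (if ((i, k) : I × Fin n) = x then (1 : ZMod 2) else 0) = if x.1 = i then 1 else 0 := by
  obtain ⟨j, l⟩ := x
  by_cases hij : j = i
  · subst hij
    simp
  · rw [if_neg hij]
    apply Finset.sum_eq_zero
    intro k _
    rw [if_neg]
    intro h
    exact hij (congrArg Prod.fst h).symm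

theorem ee_even [DecidableEq I] {x y : I × Fin n} (h : x.1 = y.1) (i : I) : ∑ k, ee x y (i, k) = 0 := by
  unfold ee
  rw [Finset.sum_add_distrib, sum_delta, sum_delta, h]
  exact two2 _

theorem exists_ee [Finite I] [DecidableEq I] {x y : I × Fin n} (h : x.1 = y.1) :
    ∃ w ∈ ⁅pCore 2 P, pResidual 2 P⁆, B.Ψ w = ee x y := B.Ψ_surj _ (ee_even h)

theorem good_unique [Finite I] {g : P} {s s' : Equiv.Perm (I × Fin n)} (h : B.Good g s) (h' : B.Good g s') : s = s' := by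
  classical
  ext1 x
  by_contra hne
  obtain ⟨i, k⟩ := x
  obtain ⟨k', hk', hk''⟩ : ∃ k' : Fin n, k' ≠ k ∧ (i, k') ≠ s⁻¹ (s' (i, k)) := by
    by_contra hcon
    push Not at hcon
    have h1 : (Finset.univ : Finset (Fin n)) ⊆ {k, (s⁻¹ (s' (i, k))).2} := by
      intro k' _
      by_cases hk : k' = k
      · rw [hk]; exact Finset.mem_insert_self _ _
      · rw [← hcon k' hk]
        exact Finset.mem_insert_of_mem (Finset.mem_singleton_self _)
    have h2 := Finset.card_le_card h1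
    rw [Finset.card_univ, Fintype.card_fin] at h2
    have h3 := Finset.card_le_two (a := k) (b := (s⁻¹ (s' (i, k))).2)
    have := B.n3
    omega
  obtain ⟨w, hw, hww⟩ := B.exists_ee (x := (i, k)) (y := (i, k')) rfl
  have h1 := h w hw (s⁻¹ (s' (i, k)))
  have h2 := h' w hw (i, k)
  have h3 : s (s⁻¹ (s' (i, k))) = s' (i, k) := s.apply_symm_apply _
  rw [h3, h2, hww] at h1
  have h4 : s⁻¹ (s' (i, k)) ≠ (i, k) := by
    intro h
    rw [h] at h3
    exact hne h3
  unfold ee at h1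
  rw [if_pos rfl, if_neg (fun e => hk' (congrArg Prod.snd e).symm), if_neg h4, if_neg (Ne.symm hk''), add_zero, add_zero] at h1
  exact one_ne_zero h1

theorem good_E {i : I} {e : P} (he : e ∈ B.E i) :
    ∃ s : Equiv.Perm (I × Fin n), B.Good e s ∧ (∀ k, s (i, k) = (i, B.r i e k)) ∧ ∀ j, j ≠ i → ∀ k, s (j, k) = (j, k) := by
  classical
  let s : Equiv.Perm (I × Fin n) :=
    { toFun := fun x => if x.1 = i then (x.1, B.r i e x.2) else x
      invFun := fun x => if x.1 = i then (x.1, (B.r i e)⁻¹ x.2) else x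
      left_inv := by
        rintro ⟨j, k⟩
        by_cases h : j = i
        · simp only [h, if_true]
          exact Prod.ext rfl ((B.r i e).symm_apply_apply k)
        · simp only [h, if_false]
      right_inv := by
        rintro ⟨j, k⟩
        by_cases h : j = i
        · simp only [h, if_true]
          exact Prod.ext rfl ((B.r i e).apply_symm_apply k)
        · simp only [h, if_false] }
  have s1 : ∀ k, s (i, k) = (i, B.r i e k) := fun k => by
    show (if i = i then _ else _) = _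
    rw [if_pos rfl]
  have s2 : ∀ j, j ≠ i → ∀ k, s (j, k) = (j, k) := fun j hj k => by
    show (if j = i then _ else _) = _
    rw [if_neg hj]
  refine ⟨s, ?_, s1, s2⟩
  rintro w hw ⟨j, k⟩
  obtain ⟨u, hu, hc⟩ := B.exists_comp j hw
  by_cases hji : j = i
  · subst hji
    have h1 := B.norW j he hu
    have h2 : (e * u * e⁻¹)⁻¹ * (e * w * e⁻¹) ∈ Subgroup.centralizer (B.E j : Set P) := by
      have h3 := B.mem_cent hc he
      have : (e * u * e⁻¹)⁻¹ * (e * w * e⁻¹) = u⁻¹ * w := by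
        calc (e * u * e⁻¹)⁻¹ * (e * w * e⁻¹) = e * (u⁻¹ * w) * e⁻¹ := by group
          _ = _ := by rw [h3]; group
      rw [this]; exact hc
    rw [s1, B.Ψ_eq h1 h2, B.Ψ_eq hu hc, B.f_conj j e he u hu]
    congr 1
    exact (B.r j e).symm_apply_apply k
  · rw [s2 j hji]
    have h2 : u⁻¹ * (e * w * e⁻¹) ∈ Subgroup.centralizer (B.E j : Set P) := by
      have h3 := B.comm i j (Ne.symm hji) e he u (B.core j hu)
      have h4 : e ∈ Subgroup.centralizer (B.E j : Set P) := B.E_cent (Ne.symm hji) he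
      have : u⁻¹ * (e * w * e⁻¹) = e * (u⁻¹ * w) * e⁻¹ := by
        calc u⁻¹ * (e * w * e⁻¹) = u⁻¹ * e * w * e⁻¹ := by group
          _ = u⁻¹ * (e * u) * u⁻¹ * w * e⁻¹ := by group
          _ = _ := by rw [h3]; group
      rw [this]
      exact mul_mem (mul_mem h4 hc) (inv_mem h4)
    rw [B.Ψ_eq hu h2, B.Ψ_eq hu hc]

theorem good_T {t : P} (τ : I → I) (hτ : ∀ i, (B.E i).map (MulAut.conj t).toMonoidHom = B.E (τ i)) [Finite I] :
    ∃ s : Equiv.Perm (I × Fin n), B.Good t s ∧ ∀ i k, (s (i, k)).1 = τ i := by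
  classical
  have hb : ∀ i, ∃ π : Equiv.Perm (Fin n), ∀ u ∈ (⁅pCore 2 P, B.E i⁆ : Subgroup P), ∀ k,
      B.f (τ i) (t * u * t⁻¹) (π k) = B.f i u k := by
    intro i
    choose g hg hfg using fun v : Ev (Fin n) => B.f_surj i (v : Fin n → ZMod 2) v.2
    have hmem : ∀ u ∈ (⁅pCore 2 P, B.E i⁆ : Subgroup P), t * u * t⁻¹ ∈ (⁅pCore 2 P, B.E (τ i)⁆ : Subgroup P) :=
      fun u hu => B.conjW (hτ i) hu
    have key : ∀ u ∈ (⁅pCore 2 P, B.E i⁆ : Subgroup P), ∀ u' ∈ (⁅pCore 2 P, B.E i⁆ : Subgroup P),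
        B.f i u = B.f i u' → B.f (τ i) (t * u * t⁻¹) = B.f (τ i) (t * u' * t⁻¹) := by
      intro u hu u' hu' h
      have h1 : B.f i (u'⁻¹ * u) = 0 := by
        have h2 : B.f i u = B.f i u' + B.f i (u'⁻¹ * u) := by
          rw [← B.f_mul i _ hu' _ (mul_mem (inv_mem hu') hu), mul_inv_cancel_left]
        rw [h] at h2
        exact left_eq_add.1 h2
      have h2 := (B.f_ker i _ (mul_mem (inv_mem hu') hu)).1 h1
      have h3 := B.conjC (hτ i) h2
      have h4 := (B.f_ker (τ i) _ (hmem _ (mul_mem (inv_mem hu') hu))).2 h3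
      have h5 : t * u * t⁻¹ = (t * u' * t⁻¹) * (t * (u'⁻¹ * u) * t⁻¹) := by group
      rw [h5, B.f_mul (τ i) _ (hmem _ hu') _ (hmem _ (mul_mem (inv_mem hu') hu)), h4, add_zero]
    have key' : ∀ u ∈ (⁅pCore 2 P, B.E i⁆ : Subgroup P), B.f (τ i) (t * u * t⁻¹) = 0 → B.f i u = 0 := by
      intro u hu h
      have h1 := (B.f_ker (τ i) _ (hmem _ hu)).1 h
      have h2 := B.conjC (B.conj_eq_inv (hτ i)) h1
      rw [B.f_ker i _ hu]
      have h3 : t⁻¹ * (t * u * t⁻¹) * t⁻¹⁻¹ = u := by group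
      rwa [h3] at h2
    let β : Ev (Fin n) →+ Ev (Fin n) :=
      { toFun := fun v => ⟨B.f (τ i) (t * g v * t⁻¹), B.f_even (τ i) _ (hmem _ (hg v))⟩
        map_zero' := by
          apply Subtype.ext
          show B.f (τ i) (t * g 0 * t⁻¹) = 0
          rw [key _ (hg 0) 1 (one_mem _) (by rw [hfg, B.f_one]; rfl), mul_one, mul_inv_cancel, B.f_one]
        map_add' := by
          intro v v'
          apply Subtype.ext
          show B.f (τ i) (t * g (v + v') * t⁻¹) = B.f (τ i) (t * g v * t⁻¹) + B.f (τ i) (t * g v' * t⁻¹)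
          rw [key _ (hg (v + v')) (g v * g v') (mul_mem (hg v) (hg v')) (by
            rw [hfg, B.f_mul i _ (hg v) _ (hg v'), hfg, hfg]; rfl),
            ← B.f_mul (τ i) _ (hmem _ (hg v)) _ (hmem _ (hg v'))]
          congr 1
          group }
    have hβf : ∀ u (hu : u ∈ (⁅pCore 2 P, B.E i⁆ : Subgroup P)),
        (β ⟨B.f i u, B.f_even i u hu⟩ : Fin n → ZMod 2) = B.f (τ i) (t * u * t⁻¹) := by
      intro u hu
      exact key _ (hg _) u hu (by rw [hfg])
    have hβ : Function.Injective β := by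
      rw [injective_iff_map_eq_zero]
      intro v hv
      apply Subtype.ext
      have h1 := key' _ (hg v) (congrArg Subtype.val hv)
      rw [hfg] at h1
      exact h1
    have hc : ∀ h ∈ alternatingGroup (Fin n), ∃ h' : Equiv.Perm (Fin n), ∀ v : Ev (Fin n),
        (β (paE h v) : Fin n → ZMod 2) = pa h' (β v) := by
      intro h hh
      obtain ⟨e, he, hre⟩ := B.r_surj i h hh
      have he' := B.conjE (hτ i) he
      refine ⟨B.r (τ i) (t * e * t⁻¹), fun v => ?_⟩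
      have h1 : paE h v = ⟨B.f i (e * g v * e⁻¹), B.f_even i _ (B.norW i he (hg v))⟩ := by
        apply Subtype.ext
        funext k
        show (v : Fin n → ZMod 2) (h⁻¹ k) = B.f i (e * g v * e⁻¹) k
        rw [B.f_conj i e he _ (hg v), hre, hfg]
      rw [h1, hβf _ (B.norW i he (hg v))]
      funext k
      show _ = B.f (τ i) (t * g v * t⁻¹) ((B.r (τ i) (t * e * t⁻¹))⁻¹ k)
      rw [← B.f_conj (τ i) _ he' _ (hmem _ (hg v))]
      congr 1
      group
    obtain ⟨π, hπ⟩ := exists_perm β hβ (by rw [Fintype.card_fin]; exact B.n3) hc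
    refine ⟨π, fun u hu k => ?_⟩
    rw [← hβf u hu, hπ]
  choose π hπ using hb
  have hinj : Function.Injective τ := by
    intro i j hij
    apply B.inj
    have h1 := hτ i
    rw [hij, ← hτ j] at h1
    exact Subgroup.map_injective (MulAut.conj t).injective h1
  have hsinj : Function.Injective (fun x : I × Fin n => (τ x.1, π x.1 x.2)) := by
    rintro ⟨i, k⟩ ⟨j, l⟩ h
    have h1 : τ i = τ j := congrArg Prod.fst h
    have h2 : i = j := hinj h1
    subst h2
    have h3 : π i k = π i l := congrArg Prod.snd h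
    rw [(π i).injective h3]
  let s : Equiv.Perm (I × Fin n) := Equiv.ofBijective _ (Finite.injective_iff_bijective.1 hsinj)
  refine ⟨s, ?_, fun i k => rfl⟩
  rintro w hw ⟨i, k⟩
  show B.Ψ (t * w * t⁻¹) (τ i, π i k) = _
  obtain ⟨u, hu, hc⟩ := B.exists_comp i hw
  have h1 := B.conjW (hτ i) hu
  have h2 : (t * u * t⁻¹)⁻¹ * (t * w * t⁻¹) ∈ Subgroup.centralizer (B.E (τ i) : Set P) := by
    have : (t * u * t⁻¹)⁻¹ * (t * w * t⁻¹) = t * (u⁻¹ * w) * t⁻¹ := by group
    rw [this]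
    exact B.conjC (hτ i) hc
  rw [B.Ψ_eq h1 h2, B.Ψ_eq hu hc, hπ i u hu]

theorem exists_good [Finite P] [Finite I] (hT : pResidual 2 P ⊔ T = ⊤) (g : P) : ∃ s, B.Good g s := by
  let M : Subgroup P :=
    { carrier := {g | ∃ s, B.Good g s}
      one_mem' := ⟨1, B.good_one⟩
      mul_mem' := by
        rintro _ _ ⟨s, hs⟩ ⟨s', hs'⟩
        exact ⟨_, B.good_mul hs hs'⟩
      inv_mem' := by
        rintro _ ⟨s, hs⟩
        exact ⟨_, B.good_inv hs⟩ }
  have h1 : pResidual 2 P ⊔ T ≤ M := by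
    refine sup_le ?_ ?_
    · rw [← B.sup]
      refine iSup_le fun i e he => ?_
      obtain ⟨s, hs, -⟩ := B.good_E he
      exact ⟨s, hs⟩
    · intro t ht
      choose τ hτ using B.perm t ht
      obtain ⟨s, hs, -⟩ := B.good_T τ hτ
      exact ⟨s, hs⟩
  rw [hT] at h1
  exact h1 (Subgroup.mem_top g)

/-- the action of `P` on the points of the blocks -/
noncomputable def σ [Finite P] [Finite I] (hT : pResidual 2 P ⊔ T = ⊤) : P →* Equiv.Perm (I × Fin n) where
  toFun g := (B.exists_good hT g).choose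
  map_one' := B.good_unique (B.exists_good hT 1).choose_spec B.good_one
  map_mul' g g' := B.good_unique (B.exists_good hT (g * g')).choose_spec
    (B.good_mul (B.exists_good hT g).choose_spec (B.exists_good hT g').choose_spec)

theorem σ_good [Finite P] [Finite I] (hT : pResidual 2 P ⊔ T = ⊤) (g : P) : B.Good g (B.σ hT g) :=
  (B.exists_good hT g).choose_spec

theorem σ_eq [Finite P] [Finite I] (hT : pResidual 2 P ⊔ T = ⊤) {g : P} {s : Equiv.Perm (I × Fin n)} (h : B.Good g s) :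
    B.σ hT g = s := B.good_unique (B.σ_good hT g) h

theorem σ_Q [Finite P] [Finite I] (hT : pResidual 2 P ⊔ T = ⊤) {g : P} (hg : g ∈ pCore 2 P) : B.σ hT g = 1 := by
  apply B.σ_eq
  intro w hw x
  have h1 := B.bw.W_comm w hw g hg
  have : g * w * g⁻¹ = w := by rw [← h1]; group
  rw [this]; rfl

/-- an element of `O²(P)` acting trivially lies in `W` -/
theorem ker_K [Finite P] [Finite I] (hT : pResidual 2 P ⊔ T = ⊤) {g : P} (hg : g ∈ pResidual 2 P) (hσ : B.σ hT g = 1) :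
    g ∈ ⁅pCore 2 P, pResidual 2 P⁆ := by
  classical
  have := Fintype.ofFinite I
  have hcomm : Pairwise fun i j : I => ∀ x y : P, x ∈ B.E i → y ∈ B.E j → Commute x y :=
    fun i j hij x y hx hy => B.comm i j hij x hx y hy
  have h1 : g ∈ (Subgroup.noncommPiCoprod hcomm).range := by
    rw [Subgroup.noncommPiCoprod_range, B.sup]; exact hg
  obtain ⟨e, rfl⟩ := h1
  -- each component acts trivially
  have h2 : ∀ i, (e i : P) ∈ (⁅pCore 2 P, B.E i⁆ : Subgroup P) := by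
    intro i
    rw [← B.r_ker i _ (e i).2]
    -- the rest centralizes `E i`
    have h3 : Subgroup.noncommPiCoprod hcomm e = (e i : P) * Subgroup.noncommPiCoprod hcomm ((Pi.mulSingle i (e i))⁻¹ * e) := by
      rw [map_mul, map_inv, Subgroup.noncommPiCoprod_mulSingle, mul_inv_cancel_left]
    set c := Subgroup.noncommPiCoprod hcomm ((Pi.mulSingle i (e i))⁻¹ * e) with hc
    have h4 : c ∈ Subgroup.centralizer (B.E i : Set P) := by
      rw [Subgroup.mem_centralizer_iff]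
      intro a ha
      have h5 : Subgroup.noncommPiCoprod hcomm (Pi.mulSingle i ⟨a, ha⟩) = a := Subgroup.noncommPiCoprod_mulSingle i ⟨a, ha⟩
      rw [hc, ← h5, ← map_mul, ← map_mul]
      congr 1
      funext j
      by_cases hji : j = i
      · subst hji
        simp
      · simp [Pi.mulSingle_eq_of_ne hji]
    -- hence acts trivially on block `i`
    obtain ⟨s, hs, hs1, -⟩ := B.good_E (e i).2
    have h5 : B.Good c (s⁻¹ * B.σ hT (Subgroup.noncommPiCoprod hcomm e)) := by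
      have h6 : c = (e i : P)⁻¹ * Subgroup.noncommPiCoprod hcomm e := by rw [h3, inv_mul_cancel_left]
      rw [h6]
      exact B.good_mul (B.good_inv hs) (B.σ_good hT _)
    rw [hσ, mul_one] at h5
    ext1 k
    by_contra hne
    -- evaluate on weight two vectors
    have h6 : ∀ w ∈ ⁅pCore 2 P, pResidual 2 P⁆, ∀ k, B.Ψ (c * w * c⁻¹) (i, k) = B.Ψ w (i, k) := by
      intro w hw k
      obtain ⟨u, hu, huc⟩ := B.exists_comp i hw
      have h7 : u⁻¹ * (c * w * c⁻¹) ∈ Subgroup.centralizer (B.E i : Set P) := by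
        have h8 := B.mem_cent h4 (inv_mem (B.core i hu))
        have : u⁻¹ * (c * w * c⁻¹) = c * (u⁻¹ * w) * c⁻¹ := by
          calc u⁻¹ * (c * w * c⁻¹) = (u⁻¹ * c) * w * c⁻¹ := by group
            _ = _ := by rw [h8]; group
        rw [this]
        exact mul_mem (mul_mem h4 huc) (inv_mem h4)
      rw [B.Ψ_eq hu h7, B.Ψ_eq hu huc]
    obtain ⟨k', hk', hk''⟩ : ∃ k' : Fin n, k' ≠ k ∧ k' ≠ B.r i (e i) k := by
      by_contra hcon
      push Not at hcon
      have h1 : (Finset.univ : Finset (Fin n)) ⊆ {k, B.r i (e i) k} := by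
        intro k' _
        by_cases hk : k' = k
        · rw [hk]; exact Finset.mem_insert_self _ _
        · rw [← hcon k' hk]
          exact Finset.mem_insert_of_mem (Finset.mem_singleton_self _)
      have h2 := Finset.card_le_card h1
      rw [Finset.card_univ, Fintype.card_fin] at h2
      have h3 := Finset.card_le_two (a := k) (b := B.r i (e i) k)
      have := B.n3
      omega
    obtain ⟨w, hw, hww⟩ := B.exists_ee (x := (i, B.r i (e i) k)) (y := (i, k')) rfl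
    have h7 := h5 w hw (i, B.r i (e i) k)
    have h8 : s⁻¹ (i, B.r i (e i) k) = (i, k) := by
      rw [← hs1]; exact s.symm_apply_apply _
    rw [h8, h6 w hw, hww] at h7
    unfold ee at h7
    rw [if_neg (fun e => hne (congrArg Prod.snd e).symm), if_neg (fun e => hk' (congrArg Prod.snd e).symm), if_pos rfl,
      if_neg (fun e => hk'' (congrArg Prod.snd e).symm), add_zero, add_zero] at h7
    exact zero_ne_one h7
  rw [Subgroup.noncommPiCoprod_apply]
  exact Subgroup.noncommProd_mem _ _ fun i _ => B.W_le i (h2 i)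

theorem σ_ker [Finite P] [Finite I] (hT : pResidual 2 P ⊔ T = ⊤) (g : P) : B.σ hT g = 1 ↔ g ∈ pCore 2 P := by
  refine ⟨fun h => ?_, B.σ_Q hT⟩
  have h1 : IsPGroup 2 (B.σ hT).ker := by
    rintro ⟨x, hx⟩
    obtain ⟨k, hk⟩ := Transfer.Residual.exists_pow_mem_pResidual 2 x
    have h2 := B.ker_K hT hk (by rw [map_pow, MonoidHom.mem_ker.1 hx, one_pow])
    refine ⟨k + 1, Subtype.ext ?_⟩
    show x ^ 2 ^ (k + 1) = 1
    rw [pow_succ, pow_mul]
    exact B.bw.W_sq _ h2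
  exact Lib.Cores.le_pCore (MonoidHom.normal_ker _) h1 h

end SBl

/-! ### The interface -/

/-- the permutation description of `P`: `I × Fin n` are the points, the fibres of the first projection are the blocks -/
structure Sy {P : Type*} [Group P] (T : Subgroup P) (I : Type) (n : ℕ) where
  Ψ : P → (I × Fin n → ZMod 2)
  σ : P →* Equiv.Perm (I × Fin n)
  fin : Finite I
  ne : Nonempty I
  n3 : 3 ≤ n
  npow : ∃ k : ℕ, n = 2 ^ k + 1
  nodd : ¬ 2 ∣ n
  bw : BW T
  mul : ∀ w ∈ (⁅pCore 2 P, pResidual 2 P⁆ : Subgroup P), ∀ w' ∈ (⁅pCore 2 P, pResidual 2 P⁆ : Subgroup P),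
    Ψ (w * w') = Ψ w + Ψ w'
  even : ∀ w ∈ (⁅pCore 2 P, pResidual 2 P⁆ : Subgroup P), ∀ i, ∑ k, Ψ w (i, k) = 0
  ker : ∀ w ∈ (⁅pCore 2 P, pResidual 2 P⁆ : Subgroup P), Ψ w = 0 ↔ w ∈ Subgroup.centralizer (pResidual 2 P : Set P)
  surj : ∀ v : I × Fin n → ZMod 2, (∀ i, ∑ k, v (i, k) = 0) → ∃ w ∈ (⁅pCore 2 P, pResidual 2 P⁆ : Subgroup P), Ψ w = v
  eqv : ∀ g, ∀ w ∈ (⁅pCore 2 P, pResidual 2 P⁆ : Subgroup P), ∀ x, Ψ (g * w * g⁻¹) (σ g x) = Ψ w x
  σker : ∀ g, σ g = 1 ↔ g ∈ pCore 2 P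
  KQ : ∀ g ∈ pResidual 2 P, g ∈ pCore 2 P → g ∈ (⁅pCore 2 P, pResidual 2 P⁆ : Subgroup P)
  alt : ∀ i, ∀ π ∈ alternatingGroup (Fin n), ∃ e ∈ pResidual 2 P, (∀ k, σ e (i, k) = (i, π k)) ∧
    ∀ j, j ≠ i → ∀ k, σ e (j, k) = (j, k)
  trans : ∀ i j, ∃ t ∈ T, ∀ k, (σ t (i, k)).1 = j
  blk : ∀ g i k k', (σ g (i, k)).1 = (σ g (i, k')).1

theorem SBl.toSy [Finite P] {T : Subgroup P} {I : Type} {n : ℕ} (B : SBl T I n) [Finite I] [Nonempty I]
    (hT : pResidual 2 P ⊔ T = ⊤) (h1 : ∃ k : ℕ, n = 2 ^ k + 1) (h2 : ¬ 2 ∣ n) : Nonempty (Sy T I n) := by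
  classical
  refine ⟨{ Ψ := B.Ψ
            σ := B.σ hT
            fin := inferInstance
            ne := inferInstance
            n3 := B.n3
            npow := h1
            nodd := h2
            bw := B.bw
            mul := fun w hw w' hw' => B.Ψ_mul hw hw'
            even := fun w hw i => B.Ψ_even hw i
            ker := fun w hw => B.Ψ_ker hw
            surj := B.Ψ_surj
            eqv := B.σ_good hT
            σker := B.σ_ker hT
            KQ := fun g hg hQ => B.ker_K hT hg (B.σ_Q hT hQ)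
            alt := ?_
            trans := ?_
            blk := ?_ }⟩
  · intro i π hπ
    obtain ⟨e, he, hre⟩ := B.r_surj i π hπ
    obtain ⟨s, hs, hs1, hs2⟩ := B.good_E he
    have h3 := B.σ_eq hT hs
    refine ⟨e, B.E_le i he, fun k => ?_, fun j hj k => ?_⟩
    · rw [h3, hs1, hre]
    · rw [h3, hs2 j hj]
  · intro i j
    obtain ⟨t, ht, hij⟩ := B.trans i j
    choose τ hτ using B.perm t ht
    obtain ⟨s, hs, hs1⟩ := B.good_T τ hτ
    have h3 := B.σ_eq hT hs
    refine ⟨t, ht, fun k => ?_⟩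
    rw [h3, hs1]
    exact B.inj ((hτ i).symm.trans hij)
  · intro g i k k'
    by_contra hne
    obtain ⟨w, hw, hww⟩ := B.exists_ee (x := (i, k)) (y := (i, k')) rfl
    have h3 := B.Ψ_even (SBl.W_conj g hw) (B.σ hT g (i, k)).1
    have h4 : ∀ z, B.Ψ (g * w * g⁻¹) z = SBl.ee (B.σ hT g (i, k)) (B.σ hT g (i, k')) z := by
      intro z
      have h5 := B.σ_good hT g w hw ((B.σ hT g).symm z)
      rw [Equiv.apply_symm_apply] at h5
      rw [h5, hww]
      unfold SBl.ee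
      simp only [Equiv.symm_apply_eq]
    rw [Finset.sum_congr rfl fun l _ => h4 _] at h3
    unfold SBl.ee at h3
    rw [Finset.sum_add_distrib, SBl.sum_delta, SBl.sum_delta, if_pos rfl, if_neg (Ne.symm hne), add_zero] at h3
    exact one_ne_zero h3

/-- the symmetric case of `Blk.typ` -/
theorem exists_Sy [Finite P] (T : Sylow 2 P) (b : Blk (T : Subgroup P))
    (h : ∃ m : ℕ, 1 ≤ m ∧ (∃ k : ℕ, 2 * m = 2 ^ k) ∧
      ∀ i, ∃ (ρ : ↥(b.E i) →* Equiv.Perm (Fin (2 * m + 1)))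
        (ψ : ↥(⁅pCore 2 P, b.E i⁆ : Subgroup P) →* Multiplicative (Fin (2 * m + 1) → ZMod 2)),
        ρ.range = alternatingGroup (Fin (2 * m + 1)) ∧
        (∀ e, ρ e = 1 ↔ (e : P) ∈ ⁅pCore 2 P, b.E i⁆) ∧
        (∀ w, ∑ k, Multiplicative.toAdd (ψ w) k = 0) ∧
        (∀ v : Fin (2 * m + 1) → ZMod 2, ∑ k, v k = 0 → ∃ w, Multiplicative.toAdd (ψ w) = v) ∧
        (∀ w, ψ w = 1 ↔ (w : P) ∈ Subgroup.centralizer (b.E i : Set P)) ∧
        ∀ (e : b.E i) (w w' : ↥(⁅pCore 2 P, b.E i⁆ : Subgroup P)), (w' : P) = (e : P) * w * (e : P)⁻¹ →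
          ∀ k, Multiplicative.toAdd (ψ w') k = Multiplicative.toAdd (ψ w) ((ρ e)⁻¹ k)) :
    ∃ n : ℕ, Nonempty (Sy (T : Subgroup P) b.I n) := by
  classical
  obtain ⟨m, hm, ⟨k, hk⟩, h⟩ := h
  choose ρ ψ hρr hρk hψe hψs hψk hψρ using h
  have := b.fin
  have := b.ne
  refine ⟨2 * m + 1, ?_⟩
  let B : SBl (T : Subgroup P) b.I (2 * m + 1) :=
    { E := b.E
      inj := b.inj
      comm := by
        intro i j hij x hx y hy
        have h1 : ⁅x, y⁆ ∈ (⊥ : Subgroup P) := by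
          rw [← b.comm i j hij]
          exact Subgroup.commutator_mem_commutator hx hy
        exact commutatorElement_eq_one_iff_mul_comm.1 (Subgroup.mem_bot.1 h1)
      sup := b.sup
      perm := b.perm
      trans := b.trans
      core := fun i => by
        rw [← b.core i]
        exact Subgroup.map_subtype_le _
      bw := b.bw
      n3 := by omega
      f := fun i u => if hu : u ∈ (⁅pCore 2 P, b.E i⁆ : Subgroup P) then Multiplicative.toAdd (ψ i ⟨u, hu⟩) else 0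
      r := fun i e => if he : e ∈ b.E i then ρ i ⟨e, he⟩ else 1
      f_mul := by
        intro i u hu u' hu'
        rw [dif_pos hu, dif_pos hu', dif_pos (mul_mem hu hu'), ← toAdd_mul, ← map_mul]
        rfl
      f_even := by
        intro i u hu
        rw [dif_pos hu]
        exact hψe i _
      f_surj := by
        intro i v hv
        obtain ⟨w, hw⟩ := hψs i v hv
        exact ⟨w, w.2, by rw [dif_pos w.2]; exact hw⟩
      f_ker := by
        intro i u hu
        rw [dif_pos hu]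
        exact hψk i ⟨u, hu⟩
      f_conj := by
        intro i e he u hu k
        have hmem : e * u * e⁻¹ ∈ (⁅pCore 2 P, b.E i⁆ : Subgroup P) := by
          have := Lib.Cores.pCore_normal (G := P) 2
          have hQ : (⁅pCore 2 P, b.E i⁆ : Subgroup P) ≤ pCore 2 P := Subgroup.commutator_le_left _ _
          have h1 : ⁅u⁻¹, e⁆ ∈ (⁅pCore 2 P, b.E i⁆ : Subgroup P) :=
            Subgroup.commutator_mem_commutator (inv_mem (hQ hu)) he
          have h2 : e * u * e⁻¹ = u * ⁅u⁻¹, e⁆ := by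
            rw [commutatorElement_def]; group
          rw [h2]
          exact mul_mem hu h1
        rw [dif_pos hu, dif_pos hmem, dif_pos he]
        exact hψρ i ⟨e, he⟩ ⟨u, hu⟩ ⟨_, hmem⟩ rfl k
      r_surj := by
        intro i h hh
        rw [← hρr i] at hh
        obtain ⟨e, he⟩ := hh
        exact ⟨e, e.2, by rw [dif_pos e.2]; exact he⟩
      r_ker := by
        intro i e he
        rw [dif_pos he]
        exact hρk i ⟨e, he⟩ }
  exact B.toSy (Transfer.Residual.pResidual_sup_sylow T) ⟨k, by omega⟩ (by omega)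

end Cfsg.Agent.H41.HM
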